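import Cfsg.Agent.H849.OZ.Bad
import Cfsg.Agent.H672.OZ.Sieve
import Cfsg.Agent.H730.OZ.Asm
import Cfsg.Agent.H904.HSIso
import Cfsg.Agent.H922.Ore.HSFinal
import Cfsg.Agent.Schreier.UTFive

/-!
# One vanishing class: `HS` (helper109, S4842)

The sieve (7 and 11 isolated, T4) leaves the degrees 21, 56, 120, 175, 210, 384, 560, 672, 1792, 2100, 3200.  They are
excluded by the values at rational elements of order 5 (`|C| ≤ 50`), 8 (`|C| ≤ 16`), 6 (`9 ∣ |C| ≤ 55`) and at a 2-central
involution.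
-/

set_option autoImplicit false
set_option maxRecDepth 100000

open Cfsg Cfsg.Agent.Characters Cfsg.Agent.H732.VZ Cfsg.Agent.H604.OZ

namespace Cfsg.Agent.H109.OZ

universe u

/-- `y` is a rational element -/
def Rat {S : Type u} [Group S] (y : S) : Prop := ∀ m : ℕ, m.Coprime (Nat.card S) → IsConj (y ^ m) y

theorem order_of_conj {S : Type u} [Group S] [Finite S] {x y : S} (h : IsConj x y) : orderOf x = orderOf y :=
  orderOf_eq_of_conj h

/-- the row from the class facts -/
theorem row_abs {S : Type u} [Group S] [Finite S] [IsSimpleGroup S] (hN : Nat.card S = 44352000)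
    (z7 : ∃ z : S, orderOf z = 7 ∧ cent z ≤ 7) (z11 : ∃ z : S, orderOf z = 11 ∧ cent z ≤ 11)
    (y5 : ∃ y : S, orderOf y = 5 ∧ Rat y ∧ cent y ≤ 50) (y8 : ∃ y : S, orderOf y = 8 ∧ Rat y ∧ cent y ≤ 16)
    (y2 : ∃ y : S, orderOf y = 2 ∧ 512 ∣ cent y ∧ cent y ≤ 65531)
    (y6 : ∃ y : S, orderOf y = 6 ∧ Rat y ∧ 9 ∣ cent y ∧ cent y ≤ 55) : H730.OZ.Row S := by
  refine row_of fun χ x h => ?_
  have h4 : 4 ≤ cent x := four_le_cent h (by rw [hN]; norm_num) (by rw [hN]; norm_num)
  have hiso : ∀ r ∈ [7, 11], charDegree (χ : S → ℂ) % r = 0 ∨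
      charDegree (χ : S → ℂ) % r = 1 ∨ charDegree (χ : S → ℂ) % r = r - 1 := by
    intro r hr
    simp only [List.mem_cons, List.not_mem_nil, or_false] at hr
    rcases hr with rfl | rfl
    · obtain ⟨z, hz, hzc⟩ := z7
      exact H672.OZ.iso_mod_of h (by norm_num) (by norm_num) (by rw [hN]; norm_num) (by rw [hN]; norm_num) hz hzc h4
    · obtain ⟨z, hz, hzc⟩ := z11
      exact H672.OZ.iso_mod_of h (by norm_num) (by norm_num) (by rw [hN]; norm_num) (by rw [hN]; norm_num) hz hzc h4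
  have hm := H672.OZ.mem_of_sieve4 h hN (l := [(2,9),(3,2),(5,3),(7,1),(11,1)]) (by decide +kernel)
    (by
      intro x hx
      simp only [List.mem_cons, List.not_mem_nil, or_false] at hx
      rcases hx with rfl | rfl | rfl | rfl | rfl <;> norm_num)
    (by decide +kernel) h4 hiso (D := [21, 56, 120, 175, 210, 384, 560, 672, 1792, 2100, 3200]) (by decide +kernel)
  obtain ⟨y5, o5, r5, c5⟩ := y5
  obtain ⟨y8, o8, r8, c8⟩ := y8
  -- degree divisible by 7
  have h7 : 7 ∣ charDegree (χ : S → ℂ) → orderOf x = 7 ∧ cent x = 7 := fun hd => by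
    have h1 := H672.OZ.full h (r := 7) (n := 1) (by norm_num) (by norm_num) (by rw [hN]; norm_num) (by rw [hN]; norm_num)
      (by rwa [pow_one])
    rw [pow_one] at h1
    exact ⟨h1.1, h1.2.1⟩
  -- even degree, `x` not of order 8
  have h2 : 2 ∣ charDegree (χ : S → ℂ) → orderOf x ≠ 8 → cent x ≤ 5 := fun hd hx => by
    have h1 := H849.OZ.one_prime h (r := 2) (by norm_num) hd ⟨3, o8⟩ r8 (fun hc => hx ((order_of_conj hc).trans o8))
    omega
  -- degree divisible by 5, `x` not of order 5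
  have h5 : 5 ∣ charDegree (χ : S → ℂ) → orderOf x = 5 := fun hd => by
    by_contra hx
    have h1 := H849.OZ.one_prime h (r := 5) (by norm_num) hd ⟨1, by rw [o5]; norm_num⟩ r5
      (fun hc => hx ((order_of_conj hc).trans o5))
    omega
  -- degree divisible by 10
  have h10 : ¬ 10 ∣ charDegree (χ : S → ℂ) := fun hd => by
    have e5 := h5 ((by norm_num : 5 ∣ 10).trans hd)
    have e2 := h2 ((by norm_num : 2 ∣ 10).trans hd) (by rw [e5]; norm_num)
    have h6 : 5 ∣ cent x := by
      rw [← e5]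
      exact Subgroup.orderOf_dvd_natCard _ (H672.OZ.mem_cent.2 rfl)
    have h7 : cent x = 5 := by omega
    exact cent_prime (ne_one h) (by rw [h7]; norm_num) (by rw [h7, hN]; norm_num)
  have h14 : ¬ 14 ∣ charDegree (χ : S → ℂ) := fun hd => by
    obtain ⟨e7, c7⟩ := h7 ((by norm_num : 7 ∣ 14).trans hd)
    have e2 := h2 ((by norm_num : 2 ∣ 14).trans hd) (by rw [e7]; norm_num)
    omega
  have h35 : ¬ 35 ∣ charDegree (χ : S → ℂ) := fun hd => by
    obtain ⟨e7, c7⟩ := h7 ((by norm_num : 7 ∣ 35).trans hd)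
    have e5 := h5 ((by norm_num : 5 ∣ 35).trans hd)
    omega
  have hd : charDegree (χ : S → ℂ) = 21 ∨ charDegree (χ : S → ℂ) = 384 := by
    generalize charDegree (χ : S → ℂ) = d at hm h10 h14 h35
    simp only [List.mem_cons, List.not_mem_nil, or_false] at hm
    omega
  rcases hd with hd | hd
  · -- degree 21
    obtain ⟨e7, c7⟩ := h7 (by rw [hd]; norm_num)
    obtain ⟨y, o6, r6, d9, c6⟩ := y6
    obtain ⟨k, hk⟩ := H849.OZ.rat (χ := χ) r6
    have h1 := H849.OZ.rat_dvd_deg (χ := χ) y hk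
    rw [hd] at h1
    have hidx : (Subgroup.centralizer ({y} : Set S)).index * cent y = 44352000 := by
      rw [← hN, mul_comm]
      exact Subgroup.card_mul_index _
    have h3 : (3 : ℤ) ∣ k := by
      have h31 : (3 : ℤ) ∣ ((Subgroup.centralizer ({y} : Set S)).index : ℤ) * k :=
        (by norm_num : (3 : ℤ) ∣ (21 : ℕ)).trans h1
      rcases Int.prime_three.dvd_mul.1 h31 with h32 | h32
      · exfalso
        have h33 : 3 ∣ (Subgroup.centralizer ({y} : Set S)).index := by exact_mod_cast h32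
        have h34 : 3 * 9 ∣ 44352000 := by
          rw [← hidx]
          exact Nat.mul_dvd_mul h33 d9
        revert h34
        norm_num
      · exact h32
    have h5 := H849.OZ.one_class h r6 hk (fun hc => by
      have := order_of_conj hc
      omega) (n := 3) h3
    rw [c7] at h5
    omega
  · -- degree 384
    have c9 : cent x ≤ 9 := H672.OZ.cent_le_of h (r := 3) (n := 2) hN (by norm_num) hd (by norm_num) (by norm_num)
      (by norm_num)
    obtain ⟨y, o2, d512, c2⟩ := y2
    have r2 : ∀ m : ℕ, m.Coprime (Nat.card S) → IsConj (y ^ m) y := fun m hm => by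
      have h1 : m % 2 = 1 := by
        have h2 : Nat.Coprime m 2 := hm.coprime_dvd_right (by rw [hN]; norm_num)
        have h3 := Nat.coprime_two_right.1 h2
        exact Nat.odd_iff.1 h3
      rw [← pow_mod_orderOf, o2, h1, pow_one]
    obtain ⟨k, hk⟩ := H849.OZ.rat (χ := χ) r2
    have h1 := H849.OZ.rat_dvd_deg (χ := χ) y hk
    rw [hd] at h1
    have hidx : (Subgroup.centralizer ({y} : Set S)).index * cent y = 44352000 := by
      rw [← hN, mul_comm]
      exact Subgroup.card_mul_index _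
    have hcop : IsCoprime (128 : ℤ) ((Subgroup.centralizer ({y} : Set S)).index : ℤ) := by
      rw [show (128 : ℤ) = 2 ^ 7 by norm_num]
      apply IsCoprime.pow_left
      have h32 : Nat.Coprime 2 (Subgroup.centralizer ({y} : Set S)).index := by
        rw [Nat.Prime.coprime_iff_not_dvd Nat.prime_two]
        intro h33
        have h34 : 2 * 512 ∣ 44352000 := by
          rw [← hidx]
          exact Nat.mul_dvd_mul h33 d512
        revert h34
        norm_num
      exact_mod_cast Nat.isCoprime_iff_coprime.2 h32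
    have h128 : (128 : ℤ) ∣ k := by
      have h31 : (128 : ℤ) ∣ ((Subgroup.centralizer ({y} : Set S)).index : ℤ) * k :=
        (by norm_num : (128 : ℤ) ∣ (384 : ℕ)).trans h1
      exact hcop.dvd_of_dvd_mul_left h31
    have h5 := H849.OZ.one_class h r2 hk (fun hc => by
      have e1 := H672.OZ.cent_eq_of_conj hc
      have e2 := Nat.le_of_dvd Nat.card_pos d512
      omega) (n := 128) h128
    omega

/-! ### the elements in the graph -/

section model

open Equiv Cfsg.Agent.HN.HS100 Cfsg.Agent.HN.Pres Cfsg.Agent.SporadicA.PermTab Cfsg.Agent.H922.Ore.Gr Cfsg.Agent.H922.Ore.HS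

theorem acts_pow {n : ℕ} {x : Perm (Fin n)} {X : ℕ} (hx : Acts x [X]) (k : ℕ) : Acts (x ^ k) (List.replicate k X) := by
  induction k with
  | zero => exact Acts.one
  | succ k ih =>
    rw [pow_succ]
    exact ih.mul hx

theorem pow_ne {n : ℕ} {x : Perm (Fin n)} {X : ℕ} (hx : Acts x [X]) {k : ℕ}
    (h : eqv n (List.replicate k X) [] = false) : x ^ k ≠ 1 := by
  intro h1
  have h2 : eqv n (List.replicate k X) [] = true := by
    unfold eqv
    rw [allB_iff]
    intro i hi
    have h3 := acts_pow hx k ⟨i, hi⟩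
    rw [h1] at h3
    rw [← h3]
    exact Nat.beq_refl _
  rw [h] at h2
  exact Bool.noConfusion h2

/-- the conjugation `c x = x^k c` -/
theorem conj_of {x : Perm (Fin 100)} {X k : ℕ} (hx : Acts x [X]) (C : List ℕ) (hm : ∀ P ∈ C, InG Q P)
    (he : eqv 100 ([X] ++ C) (C ++ List.replicate k X) = true) : ∃ c ∈ Q, c * x * c⁻¹ = x ^ k := by
  obtain ⟨c, hc, hC⟩ := exists_ev C hm
  refine ⟨c, hc, ?_⟩
  have hC' : Acts c C := hC
  have h1 : c * x = x ^ k * c := Acts.eq (hC'.mul hx) ((acts_pow hx k).mul hC') he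
  rw [h1, mul_inv_cancel_right]

theorem isConj_pow_Q {x : Perm (Fin 100)} (hxQ : x ∈ Q) {k : ℕ} (h : ∃ c ∈ Q, c * x * c⁻¹ = x ^ k) :
    IsConj ((⟨x, hxQ⟩ : Q) ^ k) (⟨x, hxQ⟩ : Q) := by
  obtain ⟨c, hc, h1⟩ := h
  refine (isConj_iff.2 ⟨⟨c, hc⟩, ?_⟩ : IsConj (⟨x, hxQ⟩ : Q) (⟨x, hxQ⟩ ^ k)).symm
  exact Subtype.ext h1

/-- bound of the centralizer -/
theorem cent_le (i : Fin 21) {x : Perm (Fin 100)} (hx : Acts x [(D i).X]) (C : Subgroup (Perm (Fin 100)))
    (hC : C ≤ φ.range) (hc : ∀ c ∈ C, c * x = x * c) : Nat.card C ≤ bnd (D i).L := by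
  have h := chk_all i
  simp only [Cls.chk, Bool.and_eq_true] at h
  refine card_le_of_chC hx (D i).m (D i).k (D i).L C [] (hC.trans HN.HS100.range_le) ?_ ?_ h.2.1
  · intro c hcC j
    have h1 := congrArg (fun z : Perm (Fin 100) => z j) (hc c hcC)
    exact h1
  · intro c _ f hf
    exact absurd hf List.not_mem_nil

theorem card_map {x : Perm (Fin 100)} (hxQ : x ∈ Q) : cent (⟨x, hxQ⟩ : Q)
    = Nat.card ((Subgroup.centralizer ({(⟨x, hxQ⟩ : Q)} : Set Q)).map Q.subtype) :=
  Nat.card_congr (Subgroup.equivMapOfInjective _ _ Q.subtype_injective).toEquiv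

theorem mem_map {x c : Perm (Fin 100)} (hxQ : x ∈ Q)
    (hc : c ∈ (Subgroup.centralizer ({(⟨x, hxQ⟩ : Q)} : Set Q)).map Q.subtype) : c ∈ Q ∧ c * x = x * c := by
  obtain ⟨d, hd, rfl⟩ := hc
  exact ⟨d.2, congrArg Subtype.val (Subgroup.mem_centralizer_singleton_iff.1 hd)⟩

theorem cent_le_Q (i : Fin 21) {x : Perm (Fin 100)} (hx : Acts x [(D i).X]) (hxQ : x ∈ Q) :
    cent (⟨x, hxQ⟩ : Q) ≤ bnd (D i).L := by
  rw [card_map hxQ]
  exact cent_le i hx _ (fun c hc => Q_le_range (mem_map hxQ hc).1) fun c hc => (mem_map hxQ hc).2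

/-- the representatives -/
theorem exists_rep (i : Fin 21) : ∃ x ∈ Q, Acts x [(D i).X] := by
  have h := chk_all i
  simp only [Cls.chk, Bool.and_eq_true] at h
  obtain ⟨x, hx, h1, -⟩ := Wit.ok (D i).toWit h.1 (mem_all i)
  exact ⟨x, hx, h1⟩

theorem mod_cases {m n N : ℕ} (h : m.Coprime N) (hn : n ∣ N) : (m % n).Coprime n := by
  have h1 : m.Coprime n := h.coprime_dvd_right hn
  rwa [Nat.Coprime, ← Nat.gcd_rec, Nat.gcd_comm]

/-- rationality from the generators of the residues -/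
theorem rat_of {G : Type u} [Group G] {n N : ℕ} {y : G} (ho : orderOf y = n) (hN : Nat.card G = N)
    (hn : n ∣ N) (h : ∀ k < n, k.Coprime n → IsConj (y ^ k) y) (hn0 : 0 < n) : Rat y := by
  intro m hm
  rw [← pow_mod_orderOf, ho]
  exact h _ (Nat.mod_lt _ hn0) (mod_cases (hN ▸ hm) hn)

theorem five : ∃ y : Q, orderOf y = 5 ∧ Rat y ∧ cent y ≤ 50 := by
  obtain ⟨x, hxQ, hx⟩ := exists_rep 9
  have : Fact (Nat.Prime 5) := ⟨by norm_num⟩
  have ho : orderOf (⟨x, hxQ⟩ : Q) = 5 := by
    rw [Subgroup.orderOf_mk]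
    refine orderOf_eq_prime (Acts.eq (acts_pow hx 5) Acts.one (by decide +kernel)) ?_
    have h1 := pow_ne hx (k := 1) (by decide +kernel)
    rwa [pow_one] at h1
  have h2 := isConj_pow_Q hxQ (conj_of hx (k := 2) [tWi, tYi, tWi, tYi, tW, tX, tW, tYi, tWi, tYi]
    (fun P hP => in5g P (by revert P; decide +kernel)) (by decide +kernel))
  have h4 : IsConj ((⟨x, hxQ⟩ : Q) ^ 4) ⟨x, hxQ⟩ := by
    have h3 := H849.OZ.isConj_pow h2 2
    rw [← pow_mul] at h3
    exact h3.trans h2
  have h3 : IsConj ((⟨x, hxQ⟩ : Q) ^ 3) ⟨x, hxQ⟩ := by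
    have h3 := H849.OZ.isConj_pow h2 4
    rw [← pow_mul] at h3
    have h5 : (⟨x, hxQ⟩ : Q) ^ (2 * 4) = ⟨x, hxQ⟩ ^ 3 := by
      rw [← pow_mod_orderOf, ho]
    rw [h5] at h3
    exact h3.trans h4
  refine ⟨⟨x, hxQ⟩, ho, rat_of ho HN.AutBound.card_Q (by norm_num) ?_ (by norm_num), cent_le_Q 9 hx hxQ⟩
  intro k hk hc
  interval_cases k
  · exact absurd hc (by decide)
  · rw [pow_one]
  · exact h2
  · exact h3
  · exact h4

theorem eight : ∃ y : Q, orderOf y = 8 ∧ Rat y ∧ cent y ≤ 16 := by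
  obtain ⟨x, hxQ, hx⟩ := exists_rep 13
  have : Fact (Nat.Prime 2) := ⟨Nat.prime_two⟩
  have ho : orderOf (⟨x, hxQ⟩ : Q) = 8 := by
    rw [Subgroup.orderOf_mk]
    exact orderOf_eq_prime_pow (p := 2) (n := 2) (pow_ne hx (k := 4) (by decide +kernel))
      (Acts.eq (acts_pow hx 8) Acts.one (by decide +kernel))
  refine ⟨⟨x, hxQ⟩, ho, rat_of ho HN.AutBound.card_Q (by norm_num) ?_ (by norm_num), cent_le_Q 13 hx hxQ⟩
  intro k hk hc
  interval_cases k
  · exact absurd hc (by decide)
  · rw [pow_one]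
  · exact absurd hc (by decide)
  · exact isConj_pow_Q hxQ (conj_of hx (k := 3) [tW, tX, tW, tY, tY, tY, tWi, tWi, tWi, tYi, tX, tYi]
      (fun P hP => in5g P (by revert P; decide +kernel)) (by decide +kernel))
  · exact absurd hc (by decide)
  · exact isConj_pow_Q hxQ (conj_of hx (k := 5) [tX, tY, tX, tY, tW, tW, tW, tYi, tYi, tYi, tWi, tX, tWi]
      (fun P hP => in5g P (by revert P; decide +kernel)) (by decide +kernel))
  · exact absurd hc (by decide)
  · exact isConj_pow_Q hxQ (conj_of hx (k := 7) [tX]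
      (fun P hP => in5g P (by revert P; decide +kernel)) (by decide +kernel))

/-- a second element of order three in a centralizer -/
theorem nine_dvd {G : Type u} [Group G] [Finite G] {y u : G} (ho : orderOf y = 6) (hu : orderOf u = 3)
    (hc : u * y = y * u) (h1 : u ≠ y ^ 2) (h2 : u ≠ y ^ 4) : 9 ∣ cent y := by
  classical
  have h3 : Fact (Nat.Prime 3) := ⟨Nat.prime_three⟩
  let C := Subgroup.centralizer ({y} : Set G)
  let a : C := ⟨y ^ 2, Subgroup.mem_centralizer_singleton_iff.2 ((Commute.refl y).pow_left 2).eq⟩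
  let v : C := ⟨u, Subgroup.mem_centralizer_singleton_iff.2 hc⟩
  have ha : orderOf a = 3 := by
    rw [← Subgroup.orderOf_coe]
    show orderOf (y ^ 2) = 3
    rw [orderOf_pow' y (by norm_num), ho]
    norm_num
  have haz : ∀ g : C, g * a = a * g := fun g => by
    apply Subtype.ext
    have h4 : Commute (g : G) y := Subgroup.mem_centralizer_singleton_iff.1 g.2
    exact (h4.pow_right 2).eq
  have hn : (Subgroup.zpowers a).Normal := by
    refine ⟨fun n hn g => ?_⟩
    obtain ⟨j, rfl⟩ := Subgroup.mem_zpowers_iff.1 hn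
    have h4 : Commute g (a ^ j) := (show Commute g a from haz g).zpow_right j
    rw [h4.eq, mul_inv_cancel_right]
    exact Subgroup.mem_zpowers_iff.2 ⟨j, rfl⟩
  have hv : v ∉ Subgroup.zpowers a := by
    intro h4
    rw [mem_zpowers_iff_mem_range_orderOf, ha] at h4
    obtain ⟨k, hk, hk'⟩ := Finset.mem_image.1 h4
    rw [Finset.mem_range] at hk
    have h5 : (y ^ 2) ^ k = u := congrArg Subtype.val hk'
    interval_cases k
    · rw [pow_zero] at h5
      rw [← h5, orderOf_one] at hu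
      omega
    · rw [pow_one] at h5
      exact h1 h5.symm
    · rw [← pow_mul] at h5
      exact h2 h5.symm
  have h6 : orderOf ((QuotientGroup.mk' (Subgroup.zpowers a)) v) = 3 := by
    refine orderOf_eq_prime ?_ ?_
    · rw [← map_pow]
      have h7 : v ^ 3 = 1 := by
        apply Subtype.ext
        show u ^ 3 = 1
        rw [← hu, pow_orderOf_eq_one]
      rw [h7, map_one]
    · intro h7
      apply hv
      rwa [← MonoidHom.mem_ker, QuotientGroup.ker_mk'] at h7
  have h8 : 3 ∣ Nat.card (C ⧸ Subgroup.zpowers a) := by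
    rw [← h6]
    exact orderOf_dvd_natCard _
  have h9 := Subgroup.card_eq_card_quotient_mul_card_subgroup (Subgroup.zpowers a)
  rw [Nat.card_zpowers, ha] at h9
  show 9 ∣ Nat.card C
  rw [h9]
  exact Nat.mul_dvd_mul h8 (dvd_refl 3)

theorem six : ∃ y : Q, orderOf y = 6 ∧ Rat y ∧ 9 ∣ cent y ∧ cent y ≤ 55 := by
  obtain ⟨x, hxQ, hx⟩ := exists_rep 10
  have h6 : x ^ 6 = 1 := Acts.eq (acts_pow hx 6) Acts.one (by decide +kernel)
  have h3 : x ^ 3 ≠ 1 := pow_ne hx (k := 3) (by decide +kernel)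
  have h2 : x ^ 2 ≠ 1 := pow_ne hx (k := 2) (by decide +kernel)
  have ho' : orderOf x = 6 := by
    refine orderOf_eq_of_pow_and_pow_div_prime (by norm_num) h6 ?_
    intro p hp hd
    have h4 : p ∣ 2 * 3 := hd
    rcases hp.dvd_mul.1 h4 with h5 | h5
    · rw [(Nat.prime_dvd_prime_iff_eq hp Nat.prime_two).1 h5]
      exact h3
    · rw [(Nat.prime_dvd_prime_iff_eq hp Nat.prime_three).1 h5]
      exact h2
  have ho : orderOf (⟨x, hxQ⟩ : Q) = 6 := by rw [Subgroup.orderOf_mk, ho']
  have hfin : Finite Q := inferInstance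
  refine ⟨⟨x, hxQ⟩, ho, rat_of ho HN.AutBound.card_Q (by norm_num) ?_ (by norm_num), ?_, ?_⟩
  · intro k hk hc
    interval_cases k
    · exact absurd hc (by decide)
    · rw [pow_one]
    · exact absurd hc (by decide)
    · exact absurd hc (by decide)
    · exact absurd hc (by decide)
    · exact isConj_pow_Q hxQ (conj_of hx (k := 5) [tY, tX, tWi, tX]
        (fun P hP => in5g P (by revert P; decide +kernel)) (by decide +kernel))
  · obtain ⟨u, hu, hU⟩ := exists_ev [tW, tYi, tW, tW, tW, tW, tY, tY, tY, tW, tW, tY, tW, tX, tY]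
      (fun P hP => in5g P (by revert P; decide +kernel))
    have hU' : Acts u [tW, tYi, tW, tW, tW, tW, tY, tY, tY, tW, tW, tY, tW, tX, tY] := hU
    have : Fact (Nat.Prime 3) := ⟨Nat.prime_three⟩
    have hne : ∀ k : ℕ, eqv 100 [tW, tYi, tW, tW, tW, tW, tY, tY, tY, tW, tW, tY, tW, tX, tY]
        (List.replicate k (D 10).X) = false → u ≠ x ^ k := by
      intro k hk h1
      have h4 : eqv 100 [tW, tYi, tW, tW, tW, tW, tY, tY, tY, tW, tW, tY, tW, tX, tY]
          (List.replicate k (D 10).X) = true := by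
        unfold eqv
        rw [allB_iff]
        intro i hi
        rw [← acts_pow hx k ⟨i, hi⟩, ← h1, hU' ⟨i, hi⟩]
        exact Nat.beq_refl _
      rw [hk] at h4
      exact Bool.noConfusion h4
    refine nine_dvd ho (u := ⟨u, hu⟩) ?_ (Subtype.ext ?_) ?_ ?_
    · rw [Subgroup.orderOf_mk]
      refine orderOf_eq_prime ?_ ?_
      · rw [pow_succ, pow_two]
        exact Acts.eq ((hU'.mul hU').mul hU') Acts.one (by decide +kernel)
      · have h4 := hne 0 (by decide +kernel)
        rwa [pow_zero] at h4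
    · exact Acts.eq (hU'.mul hx) (hx.mul hU') (by decide +kernel)
    · intro h4
      exact hne 2 (by decide +kernel) (congrArg Subtype.val h4)
    · intro h4
      exact hne 4 (by decide +kernel) (congrArg Subtype.val h4)
  · -- an odd element of the centralizer
    obtain ⟨a, ha, hA⟩ := exists_ev [tY, tY] (fun P hP => in5g P (by revert P; decide +kernel))
    obtain ⟨b, hb, hB⟩ := exists_ev [tX, tYi, tYi] (fun P hP => in5g P (by revert P; decide +kernel))
    have hA' : Acts a [tY, tY] := hA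
    have hB' : Acts b [tX, tYi, tYi] := hB
    have hZ : Acts Z [tZ] := fun _ => rfl
    have hv := hB'.mul (hZ.mul hA')
    have hZr : Z ∈ φ.range := ⟨gz, φ_gz⟩
    have hvr : b * (Z * a) ∈ φ.range := mul_mem (Q_le_range hb) (mul_mem hZr (Q_le_range ha))
    have hvQ : b * (Z * a) ∉ Q := by
      intro h1
      have h4 : Z ∈ Q := by
        have h5 : Z = b⁻¹ * (b * (Z * a)) * a⁻¹ := by group
        rw [h5]
        exact mul_mem (mul_mem (inv_mem hb) h1) (inv_mem ha)
      have h5 := (mem_Q_iff hZr).1 h4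
      rw [sign_Z] at h5
      exact absurd h5 (by decide)
    have hvc : b * (Z * a) * x = x * (b * (Z * a)) := Acts.eq (hv.mul hx) (hx.mul hv) (by decide +kernel)
    let K : Subgroup (Perm (Fin 100)) := Subgroup.centralizer ({x} : Set (Perm (Fin 100))) ⊓ φ.range
    have hK : Nat.card K ≤ bnd (D 10).L := cent_le 10 hx K inf_le_right fun c hc =>
      Subgroup.mem_centralizer_singleton_iff.1 hc.1
    rw [card_map hxQ]
    have hle : (Subgroup.centralizer ({(⟨x, hxQ⟩ : Q)} : Set Q)).map Q.subtype ≤ K := fun c hc =>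
      ⟨Subgroup.mem_centralizer_singleton_iff.2 (mem_map hxQ hc).2, Q_le_range (mem_map hxQ hc).1⟩
    have h2c := Cfsg.Agent.Schreier.UTFive.two_mul_card_le hle (x := b * (Z * a))
      ⟨Subgroup.mem_centralizer_singleton_iff.2 hvc, hvr⟩ (fun h => hvQ (mem_map hxQ h).1)
    have h72 : bnd (D 10).L = 72 := by decide +kernel
    omega

end model

/-- **S4842, `HS`.** -/
theorem row_hs {S : Type u} [Group S] [Finite S] (_hs : IsSimpleGroup S) (h : Spor.IsoHS S) : H730.OZ.Row S := by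
  obtain ⟨e⟩ := h
  obtain ⟨⟨f⟩, hsim⟩ := HN.AutHS.nonempty_Q
  have hQ : Spor.IsoHS HN.HS100.Q := ⟨f⟩
  have hcard : Nat.card HN.HS100.Q = 44352000 := HN.AutBound.card_Q
  have hfin : Finite HN.HS100.Q := Nat.finite_of_card_ne_zero (by rw [hcard]; norm_num)
  refine H730.OZ.Row.congr (e.trans f.symm) (row_abs hcard ?_ ?_ five eight ?_ six)
  · have : Fact (Nat.Prime 7) := ⟨by norm_num⟩
    obtain ⟨z, hz⟩ := exists_prime_orderOf_dvd_card' (G := HN.HS100.Q) 7 (by rw [hcard]; norm_num)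
    exact ⟨z, hz, (H904.HSIso.card_seven hQ hz).le⟩
  · have : Fact (Nat.Prime 11) := ⟨by norm_num⟩
    obtain ⟨z, hz⟩ := exists_prime_orderOf_dvd_card' (G := HN.HS100.Q) 11 (by rw [hcard]; norm_num)
    exact ⟨z, hz, (H904.HSIso.card_eleven hQ hz).le⟩
  · obtain ⟨z, -, -, -, hz, -⟩ := H904.TwoHS.classes hQ
    refine ⟨z, ?_, ?_, ?_⟩
    · have : Fact (Nat.Prime 2) := ⟨Nat.prime_two⟩
      exact orderOf_eq_prime (by rw [pow_two]; exact hz.1) hz.2.1
    · rw [cent, hz.2.2]; norm_num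
    · rw [cent, hz.2.2]; norm_num

end Cfsg.Agent.H109.OZ
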